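import Cfsg.Agent.Solv.Fitting
import Cfsg.Agent.Transfer.Residual

/-! Rank one groups: a `p`-element centralizing the normalizer of a Sylow subgroup. -/

set_option autoImplicit false

namespace CF.Rk1

open Subgroup Cfsg

/-- Split `BN`-pair data of rank one with cyclic torus and a torus element of order `∣ p - 1`. -/
structure BR (p : ℕ) {K : Type*} [Group K] (U : Subgroup K) (d t h : K) : Prop where
  pU : IsPGroup p U
  ne : U ≠ ⊥
  dn : d ∈ normalizer (U : Set K)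
  dp : ∃ n, Nat.Coprime n p ∧ d ^ n = 1
  big : ∀ g, g ∉ U ⊔ zpowers d → ∃ u ∈ U, (u * t)⁻¹ * g ∈ U ⊔ zpowers d
  opp : ∀ u ∈ U, t⁻¹ * u * t ∈ U ⊔ zpowers d → u = 1
  hB : h ∈ U ⊔ zpowers d
  hp : h ^ (p - 1) = 1
  ht : t⁻¹ * h * t ∈ U ⊔ zpowers d
  hC : ∀ u ∈ U, h * u = u * h → u = 1
  perf : commutator K = ⊤

variable {p : ℕ} {K : Type*} [Group K] {U : Subgroup K} {d t h : K}

namespace BR

variable (r : BR p U d t h)
include r

theorem B_le : U ⊔ zpowers d ≤ normalizer (U : Set K) :=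
  sup_le le_normalizer (zpowers_le.2 r.dn)

theorem conj_mem {g u : K} (hg : g ∈ U ⊔ zpowers d) (hu : u ∈ U) : g * u * g⁻¹ ∈ U :=
  (mem_normalizer_iff.1 (r.B_le hg) u).1 hu

theorem norm_le : normalizer (U : Set K) ≤ U ⊔ zpowers d := fun g hg => by
  by_contra k
  obtain ⟨u, hu, e⟩ := r.big g k
  have h1 : u * t ∈ normalizer (U : Set K) := by
    have := mul_mem hg (inv_mem (r.B_le e))
    simpa using this
  have h2 : t ∈ normalizer (U : Set K) := by
    simpa using mul_mem (inv_mem (le_normalizer hu)) h1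
  refine r.ne (eq_bot_iff.2 fun x hx => r.opp x hx (mem_sup_left ?_))
  simpa using (mem_normalizer_iff.1 (inv_mem h2) x).1 hx

theorem exists_zpow {g : K} (hg : g ∈ U ⊔ zpowers d) : ∃ i : ℤ, (d ^ i)⁻¹ * g ∈ U := by
  rw [sup_comm, ← SetLike.mem_coe, coe_mul_of_left_le_normalizer_right _ _ (zpowers_le.2 r.dn)] at hg
  obtain ⟨_, ⟨i, rfl⟩, u, hu, rfl⟩ := hg
  exact ⟨i, by simpa using hu⟩

theorem exists_hom : ∃ (Q : Type) (_ : Group Q) (_ : IsCyclic Q) (ψ : ↥(U ⊔ zpowers d) →* Q),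
    (∀ x, ψ x = 1 ↔ x.1 ∈ U) ∧ ∃ n, Nat.Coprime n p ∧ ∀ x, ψ x ^ n = 1 := by
  have : (U.subgroupOf (U ⊔ zpowers d)).Normal := (normal_subgroupOf_iff_le_normalizer le_sup_left).2 r.B_le
  let d' : ↥(U ⊔ zpowers d) := ⟨d, mem_sup_right (mem_zpowers d)⟩
  let π := QuotientGroup.mk' (U.subgroupOf (U ⊔ zpowers d))
  have h1 : ∀ x, ∃ i : ℤ, π d' ^ i = π x := fun x => by
    obtain ⟨i, hi⟩ := r.exists_zpow x.2
    exact ⟨i, by rw [← map_zpow]; exact QuotientGroup.eq.2 hi⟩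
  have hc : IsCyclic (↥(U ⊔ zpowers d) ⧸ U.subgroupOf (U ⊔ zpowers d)) :=
    ⟨π d', fun y => by obtain ⟨x, rfl⟩ := QuotientGroup.mk'_surjective _ y; exact h1 x⟩
  let e := (zmodCyclicMulEquiv hc).symm
  obtain ⟨n, hn, hd⟩ := r.dp
  refine ⟨_, inferInstance, inferInstance, e.toMonoidHom.comp π, fun x => ?_, n, hn, fun x => ?_⟩
  · simp [π, mem_subgroupOf]
  · obtain ⟨i, hi⟩ := h1 x
    have : d' ^ n = 1 := Subtype.ext hd
    rw [← map_pow, MonoidHom.comp_apply, map_pow, ← hi, ← zpow_natCast, ← zpow_mul, mul_comm,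
      zpow_mul, zpow_natCast, ← map_pow, this]
    simp

theorem core {c : K} (hc : ∀ g, g⁻¹ * c * g ∈ U ⊔ zpowers d) : c ∈ center K := by
  let N := (U ⊔ zpowers d).normalCore
  have hN : N ≤ U ⊔ zpowers d := normalCore_le _
  have h0 : c ∈ N := fun g => by simpa using hc g⁻¹
  obtain ⟨Q, _, _, ψ, h1, -⟩ := r.exists_hom
  have : IsCyclic N := isCyclic_of_injective (ψ.comp (inclusion hN))
    ((injective_iff_map_eq_one _).2 fun x hx => Subtype.ext (r.opp _ ((h1 _).1 hx)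
      (by simpa using x.2 t⁻¹)))
  have h2 := Abelianization.commutator_subset_ker
    ((IsCyclic.mulAutMulEquiv N).toMonoidHom.comp (MulAut.conjNormal (G := K) (H := N)))
  refine mem_center_iff.2 fun g => ?_
  have h3 := h2 (r.perf.ge (mem_top g))
  rw [MonoidHom.mem_ker, MonoidHom.comp_apply, MulEquiv.coe_toMonoidHom, EmbeddingLike.map_eq_one_iff] at h3
  have h4 := congrArg Subtype.val (MulEquiv.congr_fun h3 ⟨c, h0⟩)
  rw [MulAut.conjNormal_apply] at h4
  exact mul_inv_eq_iff_eq_mul.1 h4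

theorem aut_mem {α : MulAut K} (hα : ∀ u, α u ∈ U ↔ u ∈ U) {g : K} (hg : g ∈ U ⊔ zpowers d) :
    α g ∈ U ⊔ zpowers d := r.norm_le (mem_normalizer_iff.2 fun u => by
  obtain ⟨u, rfl⟩ := α.surjective u
  rw [← map_inv, ← map_mul, ← map_mul, hα, hα]
  exact mem_normalizer_iff.1 (r.B_le hg) u)

theorem eq_one {α : MulAut K} (hα : ∀ u ∈ U, α u = u) (hh : α h = h) : α = 1 := by
  have h1 : ∀ u, α u ∈ U ↔ u ∈ U := fun u =>
    ⟨fun k => α.injective (hα _ k) ▸ k, fun k => (hα u k).symm ▸ k⟩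
  have h1' : ∀ u, α⁻¹ u ∈ U ↔ u ∈ U := fun u => by rw [← h1]; simp
  have h2 : t ∉ U ⊔ zpowers d := fun k => r.ne (eq_bot_iff.2 fun x hx =>
    r.opp x hx (mul_mem (mul_mem (inv_mem k) (mem_sup_left hx)) k))
  have h3 : α t ∉ U ⊔ zpowers d := fun k => h2 (by simpa using r.aut_mem h1' k)
  obtain ⟨u, hu, e⟩ := r.big _ h3
  have h4 := r.aut_mem h1 r.ht
  rw [map_mul, map_mul, map_inv, hh] at h4
  have h5 : u⁻¹ * (h * u * h⁻¹) = 1 := r.opp _ (mul_mem (inv_mem hu) (r.conj_mem r.hB hu)) (by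
    convert mul_mem (mul_mem (mul_mem e h4) (inv_mem e)) (inv_mem r.ht) using 1
    group)
  have h6 : u = 1 := r.hC u hu (mul_inv_eq_iff_eq_mul.1 (inv_mul_eq_one.1 h5).symm)
  rw [h6, one_mul] at e
  have h7 : ∀ g, g⁻¹ * α g ∈ U ⊔ zpowers d := fun g => by
    by_cases k : g ∈ U ⊔ zpowers d
    · exact mul_mem (inv_mem k) (r.aut_mem h1 k)
    obtain ⟨v, hv, e'⟩ := r.big g k
    have := r.aut_mem h1 e'
    rw [map_mul, map_inv, map_mul, hα v hv] at this
    convert mul_mem (mul_mem (inv_mem e') e) this using 1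
    group
  have h8 : ∀ g, g⁻¹ * α g ∈ center K := fun g => r.core fun k => by
    have := mul_mem (h7 (g * k)) (inv_mem (h7 k))
    rw [map_mul] at this
    convert this using 1
    group
  have h9 : commutator K ≤ α.toMonoidHom.eqLocus (MonoidHom.id K) := commutator_le.2 fun a _ b _ => by
    obtain ⟨x, hx, ex⟩ : ∃ x ∈ center K, α a = a * x := ⟨_, h8 a, by group⟩
    obtain ⟨y, hy, ey⟩ : ∃ y ∈ center K, α b = b * y := ⟨_, h8 b, by group⟩
    change α (a * b * a⁻¹ * b⁻¹) = a * b * a⁻¹ * b⁻¹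
    rw [mem_center_iff] at hx hy
    simp only [map_mul, map_inv, ex, ey]
    calc a * x * (b * y) * (a * x)⁻¹ * (b * y)⁻¹
        = a * (x * (b * y)) * x⁻¹ * (a⁻¹ * y⁻¹) * b⁻¹ := by group
      _ = a * b * (y * (y * a)⁻¹) * b⁻¹ := by rw [← hx]; group
      _ = _ := by rw [← hy]; group
  exact MulEquiv.ext fun g => h9 (r.perf.ge (mem_top g))

theorem exists_sylow [Fact p.Prime] [Finite K] : ∃ P : Sylow p K, (P : Subgroup K) = U := by
  obtain ⟨P, hP⟩ := r.pU.exists_le_sylow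
  refine ⟨P, ?_⟩
  by_contra k
  have : Group.IsNilpotent P := P.isPGroup'.isNilpotent
  have h1 : U.subgroupOf P < ⊤ := lt_top_iff_ne_top.2 fun e => k (le_antisymm (subgroupOf_eq_top.1 e) hP)
  obtain ⟨x, hx, hx'⟩ := SetLike.exists_of_lt (normalizerCondition_of_isNilpotent _ h1)
  rw [← subgroupOf_normalizer_eq hP] at hx
  obtain ⟨Q, _, _, ψ, h2, n, hn, h3⟩ := r.exists_hom
  obtain ⟨j, hj⟩ := P.isPGroup' x
  let y : ↥(U ⊔ zpowers d) := ⟨x, r.norm_le hx⟩
  have h4 : ψ y ^ p ^ j = 1 := by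
    rw [← map_pow, show y ^ p ^ j = 1 from Subtype.ext (congrArg P.1.subtype hj), map_one]
  refine hx' ((h2 y).1 (orderOf_eq_one_iff.1 (Nat.eq_one_of_dvd_coprimes (hn.pow_right j)
    (orderOf_dvd_of_pow_eq_one (h3 y)) (orderOf_dvd_of_pow_eq_one h4))))

theorem map {K' : Type*} [Group K'] (f : K →* K') (hf : Function.Surjective f)
    (hk : f.ker ≤ center K) : BR p (U.map f) (f d) (f t) (f h) := by
  have hB : U.map f ⊔ zpowers (f d) = (U ⊔ zpowers d).map f := by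
    rw [Subgroup.map_sup, MonoidHom.map_zpowers]
  have hZ : f.ker ≤ U ⊔ zpowers d := hk.trans ((center_le_normalizer _).trans r.norm_le)
  have h1 : ∀ g, f g ∈ U.map f ⊔ zpowers (f d) ↔ g ∈ U ⊔ zpowers d := fun g => by
    rw [hB, ← mem_comap, comap_map_eq_self hZ]
  have h2 : ∀ u ∈ U, f u = 1 → u = 1 := fun u hu e => r.opp u hu (by
    rw [mul_assoc, ← mem_center_iff.1 (hk e) t]; simpa using mem_sup_left hu)
  refine ⟨r.pU.map f, fun e => r.ne (eq_bot_iff.2 fun u hu => h2 u hu (e.le (mem_map_of_mem f hu))),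
    le_normalizer_map f (mem_map_of_mem f r.dn), ?_, fun g hg => ?_, ?_, (h1 _).2 r.hB,
    by rw [← map_pow, r.hp, map_one], ?_, ?_, ?_⟩
  · obtain ⟨n, hn, e⟩ := r.dp
    exact ⟨n, hn, by rw [← map_pow, e, map_one]⟩
  · obtain ⟨g, rfl⟩ := hf g
    obtain ⟨u, hu, e⟩ := r.big g (mt (h1 g).2 hg)
    exact ⟨f u, mem_map_of_mem f hu, by simpa using (h1 _).2 e⟩
  · rintro _ ⟨u, hu, rfl⟩ e
    rw [r.opp u hu ((h1 _).1 (by simpa using e)), map_one]
  · simpa using (h1 _).2 r.ht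
  · rintro _ ⟨u, hu, rfl⟩ e
    have := h2 _ (mul_mem (r.conj_mem r.hB hu) (inv_mem hu)) (by simp [e])
    rw [r.hC u hu (mul_inv_eq_iff_eq_mul.1 (mul_inv_eq_one.1 this)), map_one]
  · rw [_root_.commutator_def, ← map_top_of_surjective f hf, ← Subgroup.map_commutator,
      ← _root_.commutator_def, r.perf]

theorem aut_h [hp : Fact p.Prime] {α : MulAut K} (hα : ∀ u, α u ∈ U ↔ u ∈ U) {k : ℕ}
    (ho : α ^ p ^ k = 1) : h⁻¹ * α h ∈ U := by
  classical
  obtain ⟨Q, _, _, ψ, h1, n, hn, h2⟩ := r.exists_hom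
  have hp1 := hp.out.two_le
  have hα' : ∀ (i : ℕ) u, (α ^ i) u ∈ U ↔ u ∈ U := fun i u => by
    induction i with
    | zero => rfl
    | succ i ih => rw [pow_succ', MulAut.mul_apply, hα, ih]
  let y (i : ℕ) : ↥(U ⊔ zpowers d) := ⟨(α ^ i) h, r.aut_mem (hα' i) r.hB⟩
  have h3 : ∀ i, ψ (y i) ^ (p - 1) = 1 := fun i => by
    rw [← map_pow, show y i ^ (p - 1) = 1 from Subtype.ext (by
      change (α ^ i) h ^ (p - 1) = 1
      rw [← map_pow, r.hp, map_one]), map_one]
  have hn0 : n ≠ 0 := by rintro rfl; simp at hn; omega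
  have : Finite ψ.range := by
    obtain ⟨g, hg⟩ := IsCyclic.exists_generator (α := ψ.range)
    obtain ⟨x, hx⟩ := g.2
    have : IsOfFinOrder g := isOfFinOrder_iff_pow_eq_one.2 ⟨n, by omega, Subtype.ext (by
      rw [SubgroupClass.coe_pow, ← hx, h2]; rfl)⟩
    have h5 := finite_zpowers.2 this
    rw [(eq_top_iff' _).2 hg] at h5
    exact Set.finite_univ_iff.1 h5
  have := Fintype.ofFinite ψ.range
  obtain ⟨i, j, hi, hij, e⟩ : ∃ i j, j < p ∧ i < j ∧ ψ (y i) = ψ (y j) := by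
    have h4 := IsCyclic.card_pow_eq_one_le (α := ψ.range) (n := p - 1) (by omega)
    obtain ⟨i, hi, j, hj, hij, e⟩ := Finset.exists_ne_map_eq_of_card_lt_of_maps_to
      (s := Finset.range p) (f := fun i => ψ.rangeRestrict (y i))
      (h4.trans_lt (by rw [Finset.card_range]; omega)) fun i _ => by
        simpa using Subtype.ext (h3 i)
    have e' := congrArg Subtype.val e
    rcases hij.lt_or_gt with l | l
    exacts [⟨i, j, Finset.mem_range.1 hj, l, e'⟩, ⟨j, i, Finset.mem_range.1 hi, l, e'.symm⟩]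
  obtain ⟨m, rfl⟩ := Nat.exists_eq_add_of_lt hij
  have h5 : h⁻¹ * (α ^ (m + 1)) h ∈ U := by
    rw [← hα' i, map_mul, map_inv, ← MulAut.mul_apply, ← pow_add, ← add_assoc]
    exact (h1 ((y i)⁻¹ * y (i + m + 1))).1 (by rw [map_mul, map_inv, e, inv_mul_cancel])
  have h6 : ∀ j : ℕ, h⁻¹ * ((α ^ (m + 1)) ^ j) h ∈ U := fun j => by
    induction j with
    | zero => simp
    | succ j ih =>
      have := mul_mem h5 ((hα' (m + 1) _).2 ih)
      rwa [map_mul, map_inv, mul_assoc, mul_inv_cancel_left, ← MulAut.mul_apply, ← pow_succ'] at this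
  obtain ⟨j, hj⟩ := exists_pow_eq_self_of_coprime (x := α) (n := m + 1)
    (Nat.Coprime.coprime_dvd_right (orderOf_dvd_of_pow_eq_one ho)
      (((Nat.coprime_of_lt_prime (by omega) (by omega) hp.out).symm).pow_right k))
  exact hj ▸ h6 j

end BR

/-- A group with rank one data. -/
def R1 (p : ℕ) (K : Type*) [Group K] : Prop := ∃ (U : Subgroup K) (d t h : K), BR p U d t h

theorem R1.map {K' : Type*} [Group K'] (r : R1 p K) (f : K →* K') (hf : Function.Surjective f)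
    (hk : f.ker ≤ center K) : R1 p K' :=
  let ⟨_, _, _, _, r⟩ := r; ⟨_, _, _, _, r.map f hf hk⟩

theorem R1.equiv {K' : Type*} [Group K'] (r : R1 p K) (f : K ≃* K') : R1 p K' :=
  r.map f.toMonoidHom f.surjective ((f.toMonoidHom.ker_eq_bot_iff.2 f.injective).le.trans bot_le)

theorem R1.quot (r : R1 p K) : R1 p (K ⧸ center K) :=
  r.map _ (QuotientGroup.mk'_surjective _) (QuotientGroup.ker_mk' _).le

theorem main {X : Type*} [Group X] [Finite X] [Fact p.Prime] {K : Subgroup X} [K.Normal]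
    (hX : IsPGroup p (X ⧸ K)) (r : R1 p K) (S : Sylow p X) {z : X} (hz : z ∈ (S : Subgroup X))
    (hc : ∀ x ∈ normalizer ((S : Subgroup X) : Set X), x * z = z * x) : z ∈ pCore p X := by
  obtain ⟨U, d, t, h, r⟩ := r
  obtain ⟨P, rfl⟩ := r.exists_sylow
  obtain ⟨g, hg⟩ : ∃ g : K, ∀ u : K, u ∈ ((g • P : Sylow p K) : Subgroup K) ↔ u.1 ∈ (S : Subgroup X) := by
    obtain ⟨T, hT⟩ := (P.isPGroup'.map K.subtype).exists_le_sylow
    obtain ⟨Q, hQ⟩ := (S.isPGroup'.comap_subtype (K := K)).exists_le_sylow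
    obtain ⟨x, rfl⟩ := MulAction.exists_smul_eq X T S
    obtain ⟨g, rfl⟩ := MulAction.exists_smul_eq K P Q
    refine ⟨g, fun u => ?_⟩
    rw [← eq_of_le_of_card_ge hQ]
    · rfl
    rw [Nat.card_congr (Sylow.equiv (g • P) P).toEquiv]
    refine Nat.card_le_card_of_injective (fun a => ⟨MulAut.conjNormal x a.1, ?_⟩) fun a b e =>
      Subtype.ext ((MulAut.conjNormal x).injective (congrArg Subtype.val e))
    exact smul_mem_pointwise_smul _ (MulAut.conj x) _ (hT (mem_map_of_mem _ a.2))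
  replace r := r.map (MulAut.conj g).toMonoidHom (MulAut.conj g).surjective
    (((MulAut.conj g).toMonoidHom.ker_eq_bot_iff.2 (MulAut.conj g).injective).le.trans bot_le)
  change BR p ((g • P : Sylow p K) : Subgroup K) _ _ _ at r
  generalize ((g • P : Sylow p K) : Subgroup K) = U at hg r
  generalize (MulAut.conj g).toMonoidHom h = h at r
  have h1 : h.1⁻¹ ∈ normalizer ((S : Subgroup X) : Set X) := mem_normalizer_fintype fun s hs => by
    obtain ⟨k, hk⟩ := S.isPGroup' ⟨s, hs⟩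
    have := (hg _).1 (r.aut_h (α := MulAut.conjNormal s) (k := k) (fun u => by
      rw [hg, hg, MulAut.conjNormal_apply, mul_mem_cancel_right (inv_mem hs), mul_mem_cancel_left hs])
      (by rw [← map_pow, show s ^ p ^ k = 1 from congrArg Subtype.val hk, map_one]))
    have := mul_mem this hs
    rw [inv_inv]
    change _ ∈ (S : Subgroup X)
    simpa [mul_assoc] using this
  have h2 : MulAut.conjNormal (H := K) z = 1 := r.eq_one (fun u hu => Subtype.ext (by
      rw [MulAut.conjNormal_apply, ← hc _ (le_normalizer ((hg u).1 hu))]; simp))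
    (Subtype.ext (by rw [MulAut.conjNormal_apply, ← hc _ (inv_mem_iff.1 h1)]; simp))
  have h3 : z ∈ centralizer (K : Set X) := fun x hx => by
    have := congrArg Subtype.val (MulEquiv.congr_fun h2 ⟨x, hx⟩)
    rw [MulAut.conjNormal_apply] at this
    exact (mul_inv_eq_iff_eq_mul.1 this).symm
  have := hX.isNilpotent
  have : Group.IsNilpotent (centralizer (K : Set X)) := Subgroup.isNilpotent_of_ker_le_center
    ((QuotientGroup.mk' K).comp (centralizer (K : Set X)).subtype) (fun x hx =>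
      mem_center_iff.2 fun y => Subtype.ext (y.2 x ((QuotientGroup.eq_one_iff _).1 hx)).symm)
  exact CF.Solv.le_pCore_of_le_normal_nilpotent (zpowers_le.2 h3)
    (S.isPGroup'.to_le (zpowers_le.2 hz)) (mem_zpowers z)

end CF.Rk1
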