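import Cfsg.Agent.Rk1.A
import Cfsg.Agent.Known.Pres.U3
import Cfsg.Agent.Classical.SmallIso

/-! Rank one data for `SL₂(q)` and `SU₃(q)`. -/

set_option autoImplicit false

namespace CF.Rk1

open Subgroup Cfsg Matrix CF.Known.Pres
open scoped MatrixGroups

variable {p : ℕ} [hp : Fact p.Prime] {F : Type*} [Field F] [Fintype F]

theorem num (h5 : 5 ≤ p) {m : ℕ} (hF : Fintype.card F = p ^ m) : (p : F) = 0 ∧
    Nat.Coprime (Fintype.card F - 1) p ∧ 5 ≤ Fintype.card F ∧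
      ∃ c : Fˣ, (c : F) = 2 ∧ c ^ (p - 1) = 1 ∧ (c : F) * c ≠ 1 ∧ (c : F) ≠ 1 := by
  have h0 : m ≠ 0 := by
    rintro rfl
    exact Fintype.one_lt_card.ne' hF
  have h1 : (p : F) = 0 := by
    have := FiniteField.cast_card_eq_zero F
    rw [hF, Nat.cast_pow] at this
    exact pow_eq_zero_iff h0 |>.1 this
  have : CharP F p := (CharP.charP_iff_prime_eq_zero hp.out).2 h1
  have h2 : ∀ k : ℕ, 0 < k → k < 5 → (k : F) ≠ 0 := fun k a b e => by
    have := Nat.le_of_dvd a ((CharP.cast_eq_zero_iff F p k).1 e)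
    omega
  have h3 : (2 : F) ≠ 0 := by simpa using h2 2 (by omega) (by omega)
  have h4 : (3 : F) ≠ 0 := by simpa using h2 3 (by omega) (by omega)
  refine ⟨h1, ?_, hF ▸ h5.trans (Nat.le_self_pow h0 p), Units.mk0 2 h3, rfl, Units.ext ?_,
    fun e => h4 ?_, fun e => one_ne_zero (α := F) ?_⟩
  · refine Nat.Coprime.coprime_dvd_right (dvd_pow_self p h0) (hF ▸ ?_)
    exact (Nat.coprime_self_sub_left Fintype.card_pos).2 (Nat.coprime_one_left _)
  · have h6 : (2 : F) ^ p = 2 := by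
      have := add_pow_char (1 : F) 1 p
      rwa [one_pow, one_add_one_eq_two] at this
    refine mul_right_cancel₀ h3 ?_
    rw [Units.val_pow_eq_pow_val, Units.val_mk0, ← pow_succ, Nat.sub_add_cancel hp.out.one_le, h6]
    simp
  · rw [Units.val_mk0] at e; linear_combination e
  · rw [Units.val_mk0] at e; linear_combination e

theorem r1_U3 [StarRing F] (h5 : 5 ≤ p) {m q : ℕ} (hF : Fintype.card F = p ^ m)
    (hq : Fintype.card F = q ^ 2) (hs : ∀ x : F, star x = x ^ q) (e : U3 F ≃* SU 3 F q) :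
    R1 p (U3 F) := by
  obtain ⟨h1, h2, h3, c, c1, c2, c3, c4⟩ := num h5 hF
  obtain ⟨ζ, hζ⟩ := exists_isGen F
  have hB : ∀ g, g ∈ (U3.u (F := F)).range ⊔ zpowers (U3.h ζ) ↔ g ∈ (U3.ι ζ).range := fun g =>
    ⟨fun k => (sup_le (by rintro _ ⟨x, rfl⟩; exact ⟨_, U3.ι_inl ζ x⟩)
      (zpowers_le.2 ⟨_, U3.ι_d ζ⟩) : _ ≤ (U3.ι ζ).range) k, by
        rintro ⟨b, rfl⟩
        rw [U3.ι_eq, map_zpow]
        exact mul_mem_sup ⟨_, rfl⟩ (zpow_mem_zpowers _ _)⟩
  have ti : (U3.t : U3 F)⁻¹ = U3.t := inv_eq_of_mul_eq_one_left U3.t_mul_t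
  have pe : ∀ (x : UT F) (n : ℕ), (x ^ n).e = n * x.e := fun x n => by
    induction n with
    | zero => simp
    | succ n ih => rw [pow_succ, UT.mul_e, ih]; push_cast; ring
  have py : ∀ (x : UT F) (n : ℕ), x.e = 0 → (x ^ n).y = n * x.y := fun x n hx => by
    induction n with
    | zero => simp
    | succ n ih => rw [pow_succ, UT.mul_y, ih, hx]; push_cast; ring
  refine ⟨U3.u.range, U3.h ζ, U3.t, U3.h c, ?_, fun k => ?_, mem_normalizer_fintype ?_,
    ⟨_, h2, by rw [← map_pow, ← hζ.orderOf, pow_orderOf_eq_one, map_one]⟩, fun g hg => ?_, ?_,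
    (hB _).2 (U3.h_mem hζ c), by rw [← map_pow, c2, map_one], ?_, ?_, ?_⟩
  · rintro ⟨_, x, rfl⟩
    refine ⟨2, Subtype.ext ?_⟩
    rw [SubgroupClass.coe_pow, ← map_pow, pow_two, pow_mul,
      UT.eq_one (x := (x ^ p) ^ p) (by rw [py _ _ (by rw [pe, h1, zero_mul]), h1, zero_mul]), map_one]
    rfl
  · have := k.le ⟨(⟨0, star (ζ : F) - ζ, by simp⟩ : UT F), rfl⟩
    have := congrArg (fun g : U3 F => g.1.1 0 2) (mem_bot.1 this)
    simp only [U3.val_u] at this
    exact star_ne hq hs hζ (Eq.symm (by simpa [sub_eq_zero] using this))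
  · rintro _ ⟨x, rfl⟩
    exact ⟨_, (U3.h_mul_u ζ x).symm⟩
  · obtain ⟨x, hx⟩ := U3.exists_pt hζ (mt (hB g).2 hg)
    exact ⟨_, ⟨x, rfl⟩, (hB _).2 hx⟩
  · rintro _ ⟨x, rfl⟩ k
    rw [hB, ti, U3.tut_mem hζ] at k
    rw [k, map_one]
  · rw [hB, ti, U3.t_mul_h, mul_assoc, U3.t_mul_t, mul_one]
    exact U3.h_mem hζ _
  · rintro _ ⟨x, rfl⟩ k
    have k1 := congrArg (fun g : U3 F => g.1.1 1 2) k
    have k2 := congrArg (fun g : U3 F => g.1.1 0 2) k
    have c0 := c.ne_zero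
    have c5 : star (c : F) = c := by rw [c1]; exact star_ofNat 2
    simp only [U3.val_mul, U3.val_u, U3.val_h, mul_fin_three, c5] at k1 k2
    simp [c0] at k1 k2
    rw [UT.eq_one (x := x) (mul_left_cancel₀ (sub_ne_zero.2 c3) ?_), map_one]
    field_simp at k2
    linear_combination k2
  · have := CF.Geom.commutator_SU_eq_top hq 3 le_rfl (by rintro ⟨-, rfl⟩; omega)
    rw [_root_.commutator_def, ← map_top_of_surjective e.symm.toMonoidHom e.symm.surjective,
      ← Subgroup.map_commutator, ← _root_.commutator_def, this]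

theorem r1_SU (h5 : 5 ≤ p) {a : ℕ} (hF : Fintype.card F = p ^ (2 * a)) : R1 p (SU 3 F (p ^ a)) := by
  have hq : Fintype.card F = (p ^ a) ^ 2 := by rw [hF, ← pow_mul, mul_comm]
  obtain ⟨_, hs, ⟨e⟩⟩ := exists_U3 hq
  exact (r1_U3 h5 hF hq hs e).equiv e

theorem r1_SL (h5 : 5 ≤ p) {m : ℕ} (hF : Fintype.card F = p ^ m) : R1 p SL(2, F) := by
  obtain ⟨h1, h2, h3, c, c1, c2, c3, c4⟩ := num h5 hF
  obtain ⟨ζ, hζ⟩ := exists_isGen F
  let u : Multiplicative F →* SL(2, F) := MonoidHom.mk'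
    (fun a => ⟨!![1, a.toAdd; 0, 1], by simp [det_fin_two]⟩) fun a b => Subtype.ext (by
      change !![1, _; 0, 1] = !![1, a.toAdd; 0, 1] * !![1, b.toAdd; 0, 1]
      simp [add_comm])
  let h : Fˣ →* SL(2, F) := MonoidHom.mk'
    (fun a => ⟨!![(a : F), 0; 0, (a : F)⁻¹], by simp [det_fin_two]⟩) fun a b => Subtype.ext (by
      change !![_, 0; 0, _] = !![(a : F), 0; 0, (a : F)⁻¹] * !![(b : F), 0; 0, (b : F)⁻¹]
      simp [mul_comm])
  let t : SL(2, F) := ⟨!![0, -1; 1, 0], by simp [det_fin_two]⟩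
  have hu : ∀ a, (u a).1 = !![1, a.toAdd; 0, 1] := fun _ => rfl
  have hh : ∀ a, (h a).1 = !![(a : F), 0; 0, (a : F)⁻¹] := fun _ => rfl
  have ht : t.1 = !![0, -1; 1, 0] := rfl
  have ti : t⁻¹.1 = !![0, 1; -1, 0] := by
    change adjugate t.1 = _
    rw [ht]; simp
  have vm : ∀ a b : SL(2, F), (a * b).1 = a.1 * b.1 := fun _ _ => rfl
  let B : Subgroup SL(2, F) :=
    { carrier := {g | g.1 1 0 = 0}
      mul_mem' := fun {a b} ha hb => by
        simp only [Set.mem_setOf_eq] at *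
        simp [Matrix.mul_apply, ha, hb]
      one_mem' := by simp
      inv_mem' := fun {a} ha => by
        simp only [Set.mem_setOf_eq] at *
        change adjugate a.1 1 0 = 0
        rw [adjugate_fin_two]
        simp [ha] }
  have hz : ∀ a, h a ∈ zpowers (h ζ) := fun a => by
    obtain ⟨k, rfl⟩ := hζ a
    rw [map_pow]; exact pow_mem (mem_zpowers _) k
  have hB : ∀ g, g ∈ u.range ⊔ zpowers (h ζ) ↔ g.1 1 0 = 0 := fun g =>
    ⟨fun k => (sup_le (by rintro _ ⟨x, rfl⟩; rfl) (zpowers_le.2 rfl) : _ ≤ B) k, fun k => by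
      have d := g.2
      rw [det_fin_two, k, mul_zero, sub_zero] at d
      have : g = u (.ofAdd (g.1 0 1 * g.1 0 0)) * h (Units.mk0 _ (left_ne_zero_of_mul_eq_one d)) :=
        Subtype.ext (by
          have := left_ne_zero_of_mul_eq_one d
          rw [vm, hu, hh, mul_fin_two]
          refine (eta_fin_two g.1).trans ?_
          simp [k, this, eq_inv_of_mul_eq_one_right d])
      exact this ▸ mul_mem_sup ⟨_, rfl⟩ (hz _)⟩
  refine ⟨u.range, h ζ, t, h c, ?_, fun k => ?_, mem_normalizer_fintype ?_,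
    ⟨_, h2, by rw [← map_pow, ← hζ.orderOf, pow_orderOf_eq_one, map_one]⟩, fun g hg => ?_, ?_,
    mem_sup_right (hz c), by rw [← map_pow, c2, map_one], ?_, ?_,
    CF.Classical.commutator_SL2_eq_top (by rw [Nat.card_eq_fintype_card]; omega)⟩
  · rintro ⟨_, x, rfl⟩
    refine ⟨1, Subtype.ext ?_⟩
    rw [SubgroupClass.coe_pow, ← map_pow, pow_one,
      show x ^ p = 1 from Multiplicative.toAdd.injective (by simp [h1]), map_one]
    rfl
  · have := congrArg (fun g : SL(2, F) => g.1 0 1) (mem_bot.1 (k.le ⟨.ofAdd 1, rfl⟩))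
    simp [hu] at this
  · rintro _ ⟨x, rfl⟩
    refine ⟨.ofAdd (ζ * ζ * x.toAdd), Subtype.ext ?_⟩
    rw [← map_inv, vm, vm, hu, hu, hh, hh, mul_fin_two, mul_fin_two]
    simp [mul_comm, mul_left_comm, mul_assoc]
  · rw [hB] at hg
    refine ⟨_, ⟨.ofAdd (g.1 0 0 / g.1 1 0), rfl⟩, (hB _).2 ?_⟩
    rw [_root_.mul_inv_rev, ← map_inv, vm, vm, ti, hu, mul_fin_two]
    simp [Matrix.mul_apply, div_mul_cancel₀ _ hg]
  · rintro _ ⟨x, rfl⟩ k
    rw [hB, vm, vm, ti, hu, ht, mul_fin_two, mul_fin_two] at k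
    rw [show x = 1 by simpa using k, map_one]
  · rw [hB, vm, vm, ti, hh, ht, mul_fin_two, mul_fin_two]
    simp
  · rintro _ ⟨x, rfl⟩ k
    have k1 := congrArg (fun g : SL(2, F) => g.1 0 1) k
    have c0 := c.ne_zero
    simp only [vm, hu, hh, mul_fin_two] at k1
    simp at k1
    rw [show x = 1 from Multiplicative.toAdd.injective (mul_left_cancel₀ (sub_ne_zero.2 c3) ?_), map_one]
    field_simp at k1
    rw [toAdd_one]
    linear_combination k1

end CF.Rk1
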